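import Cfsg.Agent.Lib.N65.Grow
import Cfsg.Agent.Lib.Syl54.TE7

/-!
# E7: no element of order 5 of the Weyl group fixes a twisted vector modulo 13
-/

set_option autoImplicit false
set_option linter.unusedSectionVars false
set_option linter.unusedVariables false
set_option linter.unusedSimpArgs false
set_option maxRecDepth 100000

namespace Cfsg.Agent.Lib.N65

open Cfsg Cfsg.Lie Cfsg.Agent.Lib.Chev Matrix Cfsg.Agent.Lib.ChevFix Cfsg.Agent.Lib.TwTor32 Cfsg.Agent.Lib.Syl54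
open Cfsg.Agent.Lib.Syl54.TE7 (hFX)

/-- The linear form `a` on a root. -/
noncomputable def fv {r : ℕ} (a : Fin chevE7.rank → ZMod r) (s : Fin chevE7.nroots) : ZMod r :=
  a ⬝ᵥ (fun j => ((rcV RootE7T.R chevE7 s j : ℤ) : ZMod r))

theorem hsep0 : ∀ s : Fin chevE7.nroots, ∃ i : Fin chevE7.rank, ¬ ((5 : ℕ) : ℤ) ∣ chevE7.cartan i s := by
  decide +kernel

theorem hsep : ∀ s s' : Fin chevE7.nroots, (∀ i : Fin chevE7.rank, ((5 : ℕ) : ℤ) ∣ chevE7.cartan i s - chevE7.cartan i s') → s = s' := by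
  decide +kernel

/-- The Coxeter element of a subsystem of type `A₄`, on indices. -/
noncomputable def yf (s : ℕ) : ℕ := TabE7.X.wf 0 (TabE7.X.wf 2 (TabE7.X.wf 3 (TabE7.X.wf 1 s)))

noncomputable def y0 : Equiv.Perm (Fin chevE7.nroots) :=
  hFX.wPerm (i := 0) (by decide) * hFX.wPerm (i := 2) (by decide) * hFX.wPerm (i := 3) (by decide) * hFX.wPerm (i := 1) (by decide)

theorem y0_val (s : Fin chevE7.nroots) : ((y0 s : Fin chevE7.nroots) : ℕ) = yf s := rfl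

theorem y0_mem : y0 ∈ hFX.Wk Set.univ :=
  mul_mem (mul_mem (mul_mem (hFX.wPerm_mem _ (Set.mem_univ _)) (hFX.wPerm_mem _ (Set.mem_univ _)))
    (hFX.wPerm_mem _ (Set.mem_univ _))) (hFX.wPerm_mem _ (Set.mem_univ _))

theorem hyf5 : ∀ s : Fin chevE7.nroots, yf (yf (yf (yf (yf s)))) = s := by
  decide +kernel

theorem yf93 : yf 93 ≠ 93 := by
  decide +kernel

theorem y0_pow5 : y0 ^ 5 = 1 := by
  ext s
  have h1 : (y0 ^ 5) s = y0 (y0 (y0 (y0 (y0 s)))) := by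
    simp only [pow_succ, pow_zero, one_mul, Equiv.Perm.mul_apply]
  rw [h1, y0_val, y0_val, y0_val, y0_val, y0_val]
  exact hyf5 s

theorem y0_ne : y0 ≠ 1 := by
  intro h
  have h1 := congrArg (fun σ : Equiv.Perm (Fin chevE7.nroots) => ((σ ⟨93, by decide⟩ : Fin chevE7.nroots) : ℕ)) h
  exact yf93 h1

noncomputable def vdiff (s : ℕ) (i : Fin chevE7.rank) : ℤ := RootE7T.R.rcAt (yf s) i - RootE7T.R.rcAt s i

theorem hC0 : ∀ i : Fin chevE7.rank, (5 : ℤ) * (if (i : ℕ) = 0 then 1 else 0) =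
    (-4) * vdiff 93 i + (-1) * vdiff 78 i + (-3) * vdiff 73 i + (-2) * vdiff 69 i := by
  decide +kernel

theorem hC1 : ∀ i : Fin chevE7.rank, (5 : ℤ) * (if (i : ℕ) = 1 then 1 else 0) =
    (1) * vdiff 93 i + (-1) * vdiff 78 i + (2) * vdiff 73 i + (3) * vdiff 69 i := by
  decide +kernel

theorem hC2 : ∀ i : Fin chevE7.rank, (5 : ℤ) * (if (i : ℕ) = 2 then 1 else 0) =
    (1) * vdiff 93 i + (-1) * vdiff 78 i + (-3) * vdiff 73 i + (-2) * vdiff 69 i := by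
  decide +kernel

theorem hC3 : ∀ i : Fin chevE7.rank, (5 : ℤ) * (if (i : ℕ) = 3 then 1 else 0) =
    (1) * vdiff 93 i + (-1) * vdiff 78 i + (2) * vdiff 73 i + (-2) * vdiff 69 i := by
  decide +kernel


theorem five_ne : (5 : ZMod 13) ≠ 0 := by decide

theorem two_ne : (2 : ZMod 13) ≠ 0 := by decide

theorem vsum {a : Fin chevE7.rank → ZMod 13} (s : Fin chevE7.nroots) (h : fv a (y0 s) = fv a s) :
    ∑ i, a i * ((vdiff s i : ℤ) : ZMod 13) = 0 := by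
  have h1 : fv a (y0 s) - fv a s = 0 := sub_eq_zero.2 h
  rw [← h1]
  unfold fv dotProduct
  rw [← Finset.sum_sub_distrib]
  apply Finset.sum_congr rfl
  intro i _
  have e : vdiff s i = rcV RootE7T.R chevE7 (y0 s) i - rcV RootE7T.R chevE7 s i := rfl
  rw [e]
  push_cast
  ring

theorem vsolve {a : Fin chevE7.rank → ZMod 13} (k : Fin chevE7.rank) (c₁ c₂ c₃ c₄ : ℤ)
    (hC : ∀ i : Fin chevE7.rank, (5 : ℤ) * (if (i : ℕ) = k then 1 else 0) =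
      c₁ * vdiff 93 i + c₂ * vdiff 78 i + c₃ * vdiff 73 i + c₄ * vdiff 69 i)
    (h1 : ∑ i, a i * ((vdiff 93 i : ℤ) : ZMod 13) = 0) (h2 : ∑ i, a i * ((vdiff 78 i : ℤ) : ZMod 13) = 0)
    (h3 : ∑ i, a i * ((vdiff 73 i : ℤ) : ZMod 13) = 0) (h4 : ∑ i, a i * ((vdiff 69 i : ℤ) : ZMod 13) = 0) : a k = 0 := by
  haveI : Fact (Nat.Prime 13) := ⟨by norm_num⟩
  have h5 : ∑ i, a i * (((5 : ℤ) * (if (i : ℕ) = k then 1 else 0) : ℤ) : ZMod 13) = 0 := by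
    have e : ∀ i, a i * (((5 : ℤ) * (if (i : ℕ) = k then 1 else 0) : ℤ) : ZMod 13) =
        (c₁ : ZMod 13) * (a i * ((vdiff 93 i : ℤ) : ZMod 13)) + (c₂ : ZMod 13) * (a i * ((vdiff 78 i : ℤ) : ZMod 13)) +
        (c₃ : ZMod 13) * (a i * ((vdiff 73 i : ℤ) : ZMod 13)) + (c₄ : ZMod 13) * (a i * ((vdiff 69 i : ℤ) : ZMod 13)) := by
      intro i
      rw [hC i]
      push_cast
      ring
    rw [Finset.sum_congr rfl (fun i _ => e i), Finset.sum_add_distrib, Finset.sum_add_distrib, Finset.sum_add_distrib,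
      ← Finset.mul_sum, ← Finset.mul_sum, ← Finset.mul_sum, ← Finset.mul_sum, h1, h2, h3, h4]
    simp
  have h6 : ∑ i, a i * (((5 : ℤ) * (if (i : ℕ) = k then 1 else 0) : ℤ) : ZMod 13) = a k * 5 := by
    rw [Finset.sum_eq_single k]
    · simp
    · intro i _ hi
      have : ¬ (i : ℕ) = k := fun h => hi (Fin.ext h)
      simp [this]
    · intro h
      exact absurd (Finset.mem_univ k) h
  rw [h6] at h5
  rcases mul_eq_zero.1 h5 with h7 | h7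
  · exact h7
  · exact absurd h7 five_ne

def T3 : List (ℕ × ℕ × ℕ) := [(10, 11, 12), (10, 11, 12), (10, 11, 12), (10, 11, 12), (11, 11, 12), (11, 12, 12), (11, 12, 0), (10, 11, 12), (11, 11, 12), (11, 12, 12), (11, 12, 0), (11, 11, 12), (11, 12, 12), (11, 12, 0), (12, 12, 12), (12, 12, 0), (12, 0, 0), (11, 11, 12), (11, 12, 12), (11, 12, 0), (12, 12, 12), (12, 12, 0), (12, 0, 0), (12, 12, 12), (12, 12, 0), (12, 0, 0), (0, 0, 0), (12, 12, 12), (12, 12, 0), (12, 0, 0), (0, 0, 0), (0, 0, 0), (0, 0, 0), (11, 11, 12), (11, 12, 12), (11, 12, 0), (12, 12, 12), (12, 12, 0), (12, 0, 0), (12, 12, 12), (12, 12, 0), (12, 0, 0), (0, 0, 0), (12, 12, 12), (12, 12, 0), (12, 0, 0), (0, 0, 0), (0, 0, 0), (12, 12, 12), (12, 12, 0), (12, 0, 0), (0, 0, 0), (0, 0, 0), (12, 12, 12), (12, 12, 0), (12, 0, 0), (0, 0, 0), (12, 12, 12), (12, 12, 0), (12, 0, 0), (0, 12, 12), (0, 12, 0), (0, 0, 12),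 (0, 0, 1), (0, 1, 0), (0, 1, 1), (1, 0, 0), (1, 1, 0), (1, 1, 1), (0, 0, 0), (1, 0, 0), (1, 1, 0), (1, 1, 1), (0, 0, 0), (0, 0, 0), (1, 0, 0), (1, 1, 0), (1, 1, 1), (0, 0, 0), (0, 0, 0), (1, 0, 0), (1, 1, 0), (1, 1, 1), (0, 0, 0), (1, 0, 0), (1, 1, 0), (1, 1, 1), (1, 0, 0), (1, 1, 0), (1, 1, 1), (2, 1, 0), (2, 1, 1), (2, 2, 1), (0, 0, 0), (0, 0, 0), (0, 0, 0), (1, 0, 0), (1, 1, 0), (1, 1, 1), (0, 0, 0), (1, 0, 0), (1, 1, 0), (1, 1, 1), (1, 0, 0), (1, 1, 0), (1, 1, 1), (2, 1, 0), (2, 1, 1), (2, 2, 1), (1, 0, 0), (1, 1, 0), (1, 1, 1), (2, 1, 0), (2, 1, 1), (2, 2, 1), (2, 1, 0), (2, 1, 1), (2, 2, 1), (3, 2, 1), (2, 1, 0), (2, 1, 1), (2, 2, 1), (3, 2, 1), (3, 2, 1), (3, 2, 1), (3, 2, 1)]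

noncomputable def rr (s : Fin chevE7.nroots) : ℕ × ℕ × ℕ :=
  ((RootE7T.R.rcAt s 4 % 13).toNat, (RootE7T.R.rcAt s 5 % 13).toNat, (RootE7T.R.rcAt s 6 % 13).toNat)

theorem T3_eq : (List.finRange chevE7.nroots).map rr = T3 := by
  decide +kernel

def lv (b₄ b₅ b₆ : ℕ) (t : ℕ × ℕ × ℕ) : ℕ := (b₄ * t.1 + b₅ * t.2.1 + b₆ * t.2.2) % 13

def cnt (b₄ b₅ b₆ l : ℕ) : ℕ := (T3.map (fun t => if lv b₄ b₅ b₆ t = l then 1 else 0)).sum

theorem chk3_0 : ∀ b₅ ∈ List.range 13, ∀ b₆ ∈ List.range 13,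
    (0 = 0 ∧ b₅ = 0 ∧ b₆ = 0) ∨ ∃ l ∈ List.range 13, cnt 0 b₅ b₆ l ≠ cnt 0 b₅ b₆ (2 * l % 13) := by
  decide +kernel

theorem chk3_1 : ∀ b₅ ∈ List.range 13, ∀ b₆ ∈ List.range 13,
    (1 = 0 ∧ b₅ = 0 ∧ b₆ = 0) ∨ ∃ l ∈ List.range 13, cnt 1 b₅ b₆ l ≠ cnt 1 b₅ b₆ (2 * l % 13) := by
  decide +kernel

theorem chk3_2 : ∀ b₅ ∈ List.range 13, ∀ b₆ ∈ List.range 13,
    (2 = 0 ∧ b₅ = 0 ∧ b₆ = 0) ∨ ∃ l ∈ List.range 13, cnt 2 b₅ b₆ l ≠ cnt 2 b₅ b₆ (2 * l % 13) := by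
  decide +kernel

theorem chk3_3 : ∀ b₅ ∈ List.range 13, ∀ b₆ ∈ List.range 13,
    (3 = 0 ∧ b₅ = 0 ∧ b₆ = 0) ∨ ∃ l ∈ List.range 13, cnt 3 b₅ b₆ l ≠ cnt 3 b₅ b₆ (2 * l % 13) := by
  decide +kernel

theorem chk3_4 : ∀ b₅ ∈ List.range 13, ∀ b₆ ∈ List.range 13,
    (4 = 0 ∧ b₅ = 0 ∧ b₆ = 0) ∨ ∃ l ∈ List.range 13, cnt 4 b₅ b₆ l ≠ cnt 4 b₅ b₆ (2 * l % 13) := by
  decide +kernel

theorem chk3_5 : ∀ b₅ ∈ List.range 13, ∀ b₆ ∈ List.range 13,
    (5 = 0 ∧ b₅ = 0 ∧ b₆ = 0) ∨ ∃ l ∈ List.range 13, cnt 5 b₅ b₆ l ≠ cnt 5 b₅ b₆ (2 * l % 13) := by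
  decide +kernel

theorem chk3_6 : ∀ b₅ ∈ List.range 13, ∀ b₆ ∈ List.range 13,
    (6 = 0 ∧ b₅ = 0 ∧ b₆ = 0) ∨ ∃ l ∈ List.range 13, cnt 6 b₅ b₆ l ≠ cnt 6 b₅ b₆ (2 * l % 13) := by
  decide +kernel

theorem chk3_7 : ∀ b₅ ∈ List.range 13, ∀ b₆ ∈ List.range 13,
    (7 = 0 ∧ b₅ = 0 ∧ b₆ = 0) ∨ ∃ l ∈ List.range 13, cnt 7 b₅ b₆ l ≠ cnt 7 b₅ b₆ (2 * l % 13) := by
  decide +kernel

theorem chk3_8 : ∀ b₅ ∈ List.range 13, ∀ b₆ ∈ List.range 13,
    (8 = 0 ∧ b₅ = 0 ∧ b₆ = 0) ∨ ∃ l ∈ List.range 13, cnt 8 b₅ b₆ l ≠ cnt 8 b₅ b₆ (2 * l % 13) := by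
  decide +kernel

theorem chk3_9 : ∀ b₅ ∈ List.range 13, ∀ b₆ ∈ List.range 13,
    (9 = 0 ∧ b₅ = 0 ∧ b₆ = 0) ∨ ∃ l ∈ List.range 13, cnt 9 b₅ b₆ l ≠ cnt 9 b₅ b₆ (2 * l % 13) := by
  decide +kernel

theorem chk3_10 : ∀ b₅ ∈ List.range 13, ∀ b₆ ∈ List.range 13,
    (10 = 0 ∧ b₅ = 0 ∧ b₆ = 0) ∨ ∃ l ∈ List.range 13, cnt 10 b₅ b₆ l ≠ cnt 10 b₅ b₆ (2 * l % 13) := by
  decide +kernel

theorem chk3_11 : ∀ b₅ ∈ List.range 13, ∀ b₆ ∈ List.range 13,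
    (11 = 0 ∧ b₅ = 0 ∧ b₆ = 0) ∨ ∃ l ∈ List.range 13, cnt 11 b₅ b₆ l ≠ cnt 11 b₅ b₆ (2 * l % 13) := by
  decide +kernel

theorem chk3_12 : ∀ b₅ ∈ List.range 13, ∀ b₆ ∈ List.range 13,
    (12 = 0 ∧ b₅ = 0 ∧ b₆ = 0) ∨ ∃ l ∈ List.range 13, cnt 12 b₅ b₆ l ≠ cnt 12 b₅ b₆ (2 * l % 13) := by
  decide +kernel

theorem chk3 : ∀ b₄ ∈ List.range 13, ∀ b₅ ∈ List.range 13, ∀ b₆ ∈ List.range 13,
    (b₄ = 0 ∧ b₅ = 0 ∧ b₆ = 0) ∨ ∃ l ∈ List.range 13, cnt b₄ b₅ b₆ l ≠ cnt b₄ b₅ b₆ (2 * l % 13) := by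
  intro b₄ h
  have h1 := List.mem_range.1 h
  interval_cases b₄
  · exact chk3_0
  · exact chk3_1
  · exact chk3_2
  · exact chk3_3
  · exact chk3_4
  · exact chk3_5
  · exact chk3_6
  · exact chk3_7
  · exact chk3_8
  · exact chk3_9
  · exact chk3_10
  · exact chk3_11
  · exact chk3_12

theorem cast_mod_toNat (x : ℤ) : (((x % 13).toNat : ℕ) : ZMod 13) = (x : ZMod 13) := by
  have h1 : (0 : ℤ) ≤ x % 13 := Int.emod_nonneg _ (by norm_num)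
  have h2 : (((x % 13).toNat : ℕ) : ℤ) = x % 13 := Int.toNat_of_nonneg h1
  have h3 : ((((x % 13).toNat : ℕ) : ℤ) : ZMod 13) = ((x % 13 : ℤ) : ZMod 13) := by rw [h2]
  rw [Int.cast_natCast] at h3
  rw [h3]
  exact_mod_cast ZMod.intCast_mod x 13

theorem core (a : Fin chevE7.rank → ZMod 13) (ρ : Equiv.Perm (Fin chevE7.nroots))
    (htw : ∀ s, fv a (ρ s) = 2 * fv a s) (hy : ∀ s, fv a (y0 s) = fv a s) : a = 0 := by
  classical
  haveI : Fact (Nat.Prime 13) := ⟨by norm_num⟩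
  have h93 := vsum (a := a) ⟨93, by decide⟩ (hy _)
  have h78 := vsum (a := a) ⟨78, by decide⟩ (hy _)
  have h73 := vsum (a := a) ⟨73, by decide⟩ (hy _)
  have h69 := vsum (a := a) ⟨69, by decide⟩ (hy _)
  have a0 : a ⟨0, by decide⟩ = 0 := vsolve _ _ _ _ _ hC0 h93 h78 h73 h69
  have a1 : a ⟨1, by decide⟩ = 0 := vsolve _ _ _ _ _ hC1 h93 h78 h73 h69
  have a2 : a ⟨2, by decide⟩ = 0 := vsolve _ _ _ _ _ hC2 h93 h78 h73 h69
  have a3 : a ⟨3, by decide⟩ = 0 := vsolve _ _ _ _ _ hC3 h93 h78 h73 h69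
  set b₄ := (a ⟨4, by decide⟩).val with hb₄
  set b₅ := (a ⟨5, by decide⟩).val with hb₅
  set b₆ := (a ⟨6, by decide⟩).val with hb₆
  have hb4 : b₄ < 13 := ZMod.val_lt _
  have hb5 : b₅ < 13 := ZMod.val_lt _
  have hb6 : b₆ < 13 := ZMod.val_lt _
  let g : Fin chevE7.nroots → ℕ := fun s => lv b₄ b₅ b₆ (rr s)
  have hglt : ∀ s, g s < 13 := fun s => Nat.mod_lt _ (by norm_num)
  have hg : ∀ s, ((g s : ℕ) : ZMod 13) = fv a s := by
    intro s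
    have e1 : ((g s : ℕ) : ZMod 13) = (b₄ : ZMod 13) * ((RootE7T.R.rcAt s 4 : ℤ) : ZMod 13) +
        (b₅ : ZMod 13) * ((RootE7T.R.rcAt s 5 : ℤ) : ZMod 13) + (b₆ : ZMod 13) * ((RootE7T.R.rcAt s 6 : ℤ) : ZMod 13) := by
      show (((b₄ * (rr s).1 + b₅ * (rr s).2.1 + b₆ * (rr s).2.2) % 13 : ℕ) : ZMod 13) = _
      rw [ZMod.natCast_mod]
      push_cast
      simp only [rr, cast_mod_toNat]
    rw [e1, hb₄, hb₅, hb₆, ZMod.natCast_zmod_val, ZMod.natCast_zmod_val, ZMod.natCast_zmod_val]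
    unfold fv dotProduct
    show _ = ∑ i : Fin 7, a i * ((RootE7T.R.rcAt s i : ℤ) : ZMod 13)
    rw [Fin.sum_univ_seven]
    have a0' : a (0 : Fin 7) = 0 := a0
    have a1' : a (1 : Fin 7) = 0 := a1
    have a2' : a (2 : Fin 7) = 0 := a2
    have a3' : a (3 : Fin 7) = 0 := a3
    rw [a0', a1', a2', a3']
    simp only [zero_mul, zero_add]
    rfl
  have hgv : ∀ s (L : ZMod 13), g s = L.val ↔ fv a s = L := by
    intro s L
    constructor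
    · intro h
      rw [← hg, h, ZMod.natCast_zmod_val]
    · intro h
      rw [← h, ← hg, ZMod.val_natCast, Nat.mod_eq_of_lt (hglt s)]
  have hcnt : ∀ l : ℕ, l < 13 → cnt b₄ b₅ b₆ l = ∑ s, if fv a s = (l : ZMod 13) then 1 else 0 := by
    intro l hl
    unfold cnt
    rw [← T3_eq, List.map_map, ← Fin.sum_univ_def]
    apply Finset.sum_congr rfl
    intro s _
    have e : (l : ZMod 13).val = l := by
      rw [ZMod.val_natCast, Nat.mod_eq_of_lt hl]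
    have h1 := hgv s (l : ZMod 13)
    rw [e] at h1
    show (if g s = l then 1 else 0) = _
    simp only [h1]
  have hunif : ∀ L : ZMod 13, (∑ s, if fv a s = L then 1 else 0 : ℕ) = ∑ s, if fv a s = 2 * L then 1 else 0 := by
    intro L
    rw [← Equiv.sum_comp ρ (fun s => if fv a s = 2 * L then 1 else 0)]
    apply Finset.sum_congr rfl
    intro s _
    have h2 : (2 : ZMod 13) ≠ 0 := two_ne
    have e : fv a (ρ s) = 2 * L ↔ fv a s = L := by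
      rw [htw]
      exact mul_right_inj' h2
    simp only [e]
  have hstep : ∀ l ∈ List.range 13, cnt b₄ b₅ b₆ l = cnt b₄ b₅ b₆ (2 * l % 13) := by
    intro l hl
    have hl' := List.mem_range.1 hl
    rw [hcnt l hl', hcnt _ (Nat.mod_lt _ (by norm_num)), hunif]
    have e : (((2 * l % 13 : ℕ)) : ZMod 13) = 2 * (l : ZMod 13) := by
      rw [ZMod.natCast_mod]
      push_cast
      rfl
    rw [e]
  have h0 := chk3 b₄ (List.mem_range.2 hb4) b₅ (List.mem_range.2 hb5) b₆ (List.mem_range.2 hb6)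
  rcases h0 with ⟨e4, e5, e6⟩ | ⟨l, hl, hne⟩
  · have a4 : a ⟨4, by decide⟩ = 0 := (ZMod.val_eq_zero _).1 e4
    have a5 : a ⟨5, by decide⟩ = 0 := (ZMod.val_eq_zero _).1 e5
    have a6 : a ⟨6, by decide⟩ = 0 := (ZMod.val_eq_zero _).1 e6
    funext i
    show a i = 0
    have hi : ∀ i : Fin 7, i = ⟨0, by decide⟩ ∨ i = ⟨1, by decide⟩ ∨ i = ⟨2, by decide⟩ ∨ i = ⟨3, by decide⟩ ∨ i = ⟨4, by decide⟩ ∨ i = ⟨5, by decide⟩ ∨ i = ⟨6, by decide⟩ := by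
      decide
    rcases hi i with h | h | h | h | h | h | h <;> rw [h]
    · exact a0
    · exact a1
    · exact a2
    · exact a3
    · exact a4
    · exact a5
    · exact a6
  · exact absurd (hstep l hl) hne

/-- Two elements of prime order are conjugate up to a power if the square of the prime does not divide the order. -/
theorem conj_order_prime {W : Type*} [Group W] [Finite W] {p : ℕ} [Fact p.Prime] (hp : ¬ p ^ 2 ∣ Nat.card W) {x y : W}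
    (hx : orderOf x = p) (hy : orderOf y = p) : ∃ g : W, ∃ k : ℕ, g * x * g⁻¹ = y ^ k := by
  classical
  have hpp : p.Prime := Fact.out
  have hpc : IsPGroup p (Subgroup.zpowers x) := by
    rw [IsPGroup.iff_card, Nat.card_zpowers, hx]
    exact ⟨1, (pow_one p).symm⟩
  have hpc' : IsPGroup p (Subgroup.zpowers y) := by
    rw [IsPGroup.iff_card, Nat.card_zpowers, hy]
    exact ⟨1, (pow_one p).symm⟩
  obtain ⟨S, hS⟩ := hpc.exists_le_sylow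
  obtain ⟨S', hS'⟩ := hpc'.exists_le_sylow
  have hcard : ∀ P : Sylow p W, (Subgroup.zpowers x ≤ (P : Subgroup W) ∨ Subgroup.zpowers y ≤ (P : Subgroup W)) → Nat.card (P : Subgroup W) = p := by
    intro P hP
    have h1 : p ∣ Nat.card (P : Subgroup W) := by
      rcases hP with hP | hP
      · have := Subgroup.card_dvd_of_le hP
        rwa [Nat.card_zpowers, hx] at this
      · have := Subgroup.card_dvd_of_le hP
        rwa [Nat.card_zpowers, hy] at this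
    have h2 := P.card_eq_multiplicity
    have h3 : (Nat.card W).factorization p = 1 := by
      have h4 : (Nat.card W).factorization p ≠ 0 := by
        intro h0
        rw [h0, pow_zero] at h2
        rw [h2] at h1
        exact hpp.one_lt.ne' (Nat.dvd_one.1 h1)
      have h5 : (Nat.card W).factorization p < 2 := by
        by_contra h6
        apply hp
        have h7 := Nat.ordProj_dvd (Nat.card W) p
        exact (pow_dvd_pow p (not_lt.1 h6)).trans h7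
      omega
    rw [h2, h3, pow_one]
  have heq : (S' : Subgroup W) = Subgroup.zpowers y := by
    symm
    apply Subgroup.eq_of_le_of_card_ge hS'
    rw [hcard S' (Or.inr hS'), Nat.card_zpowers, hy]
  obtain ⟨g, hg⟩ := MulAction.exists_smul_eq W S S'
  have hxS : g * x * g⁻¹ ∈ (S' : Subgroup W) := by
    rw [← hg, Sylow.coe_subgroup_smul, Subgroup.mem_smul_pointwise_iff_exists]
    exact ⟨x, hS (Subgroup.mem_zpowers x), by simp [MulAut.smul_def, MulAut.conj_apply]⟩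
  rw [heq, ← mem_powers_iff_mem_zpowers] at hxS
  obtain ⟨k, hk⟩ := hxS
  exact ⟨g, k, hk.symm⟩

theorem fv_mat {r : ℕ} (a : Fin chevE7.rank → ZMod r) {g : Equiv.Perm (Fin chevE7.nroots)} (hg : g ∈ hFX.Wk Set.univ)
    (s : Fin chevE7.nroots) :
    fv a (g s) = fv (a ᵥ* ((mat hFX g).map (Int.castRingHom (ZMod r)))) s := by
  unfold fv
  rw [← Matrix.dotProduct_mulVec]
  congr 1
  funext j
  have h1 := mat_rc hFX hg s
  rw [h1]
  have h2 := RingHom.map_mulVec (Int.castRingHom (ZMod r)) (mat hFX g) (rcV RootE7T.R chevE7 s) j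
  exact h2

theorem fv_pF {r : ℕ} (a : Fin chevE7.rank → ZMod r) (j : Fin chevE7.rank) : fv a (hFX.pF j) = a j := by
  classical
  unfold fv
  have h1 : (fun i => ((rcV RootE7T.R chevE7 (hFX.pF j) i : ℤ) : ZMod r)) = Pi.single j 1 := by
    funext i
    rw [rcV_pF]
    by_cases h : i = j
    · subst h
      simp
    · simp [Pi.single_eq_of_ne h]
  rw [h1, dotProduct_single, mul_one]

/-- No element of order `5` of the Weyl group fixes a twisted vector modulo `13`. -/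
theorem stab_no5 {a : Fin chevE7.rank → ZMod 13} (ha : a ≠ 0) {ρ : Equiv.Perm (Fin chevE7.nroots)}
    (hρ : ρ ∈ hFX.Wk Set.univ) (htw : ∀ s, fv a (ρ s) = 2 * fv a s) {y : Equiv.Perm (Fin chevE7.nroots)}
    (hy : y ∈ hFX.Wk Set.univ) (hys : ∀ s, fv a (y s) = fv a s) (hy5 : y ^ 5 = 1) : y = 1 := by
  classical
  by_contra hne
  haveI : Fact (Nat.Prime 5) := ⟨by norm_num⟩
  let Y : ↥(hFX.Wk Set.univ) := ⟨y, hy⟩
  let Y0 : ↥(hFX.Wk Set.univ) := ⟨y0, y0_mem⟩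
  have hordY : orderOf Y = 5 := orderOf_eq_prime (Subtype.ext hy5) (fun h => hne (congrArg Subtype.val h))
  have hordY0 : orderOf Y0 = 5 := orderOf_eq_prime (Subtype.ext y0_pow5) (fun h => y0_ne (congrArg Subtype.val h))
  have hcard : ¬ 5 ^ 2 ∣ Nat.card ↥(hFX.Wk Set.univ) := by
    rw [TE7.card_Wk]
    decide
  obtain ⟨G, k, hG⟩ := conj_order_prime hcard hordY0 hordY
  have hG' : G.1 * y0 * G.1⁻¹ = y ^ k := congrArg Subtype.val hG
  have hyk : ∀ (k : ℕ) s, fv a ((y ^ k) s) = fv a s := by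
    intro k
    induction k with
    | zero => intro s; rfl
    | succ k ih =>
      intro s
      rw [pow_succ', Equiv.Perm.mul_apply, hys, ih]
  set a' := a ᵥ* ((mat hFX G.1).map (Int.castRingHom (ZMod 13))) with ha'
  have hfv : ∀ s, fv a' s = fv a (G.1 s) := fun s => (fv_mat a G.2 s).symm
  have h0 : a' = 0 := by
    apply core a' (G.1⁻¹ * ρ * G.1)
    · intro s
      rw [hfv, hfv]
      have : G.1 ((G.1⁻¹ * ρ * G.1) s) = ρ (G.1 s) := by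
        simp [Equiv.Perm.mul_apply]
      rw [this, htw]
    · intro s
      rw [hfv, hfv]
      have : G.1 (y0 s) = (y ^ k) (G.1 s) := by
        rw [← hG']
        simp [Equiv.Perm.mul_apply]
      rw [this, hyk]
  apply ha
  funext j
  have h1 := hfv (G.1⁻¹ (hFX.pF j))
  have h2 : G.1 (G.1⁻¹ (hFX.pF j)) = hFX.pF j := by simp
  rw [h2, fv_pF, h0] at h1
  rw [← h1]
  simp [fv, dotProduct]

end Cfsg.Agent.Lib.N65
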