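import Cfsg.Agent.Lib.N65.Main

/-!
# The Chevalley group of type E7 over the field with two elements has no element of order 65
-/

set_option autoImplicit false
set_option linter.unusedSectionVars false
set_option linter.unusedVariables false
set_option linter.unusedSimpArgs false
set_option maxRecDepth 100000

namespace Cfsg.Agent.Lib.N65

open Cfsg Cfsg.Lie Cfsg.Agent.Lib.Chev Matrix Cfsg.Agent.Lib.ChevFix Cfsg.Agent.Lib.TwTor32 Cfsg.Agent.Lib.Syl54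
open Cfsg.Agent.Lib.Syl54.TE7 (hFX)

theorem conj_inv_pow_aux {G : Type*} [Group G] (Y g : G) (k : ℕ) : (Y⁻¹ * g * Y) ^ k = Y⁻¹ * g ^ k * Y := by
  have := conj_pow (a := Y⁻¹) (b := g) (i := k)
  rwa [inv_inv] at this

section Log

variable {K : Type*} [Field K] [Fintype K]

theorem chi_eq_Xc (c : Fin chevE7.rank → Kˣ) (s : Fin chevE7.nroots) :
    chiT chevE7 c s = Xc c (rcV RootE7T.R chevE7 s) := (Xc_rc hFX c s.2).symm

/-- The linear form attached to an element of the torus of order dividing `r`. -/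
theorem exists_fv {r : ℕ} [Fact r.Prime] {ζ : Kˣ} (hζ : orderOf ζ = r)
    {c : Fin chevE7.rank → Kˣ} (hc : (tor RootE7T.R chevE7 c : GL chevE7.Idx K) ^ r = 1)
    (hne : (tor RootE7T.R chevE7 c : GL chevE7.Idx K) ≠ 1) :
    ∃ a : Fin chevE7.rank → ZMod r, a ≠ 0 ∧
      (∀ s s' : Fin chevE7.nroots, chiT chevE7 c s = chiT chevE7 c s' ↔ fv a s = fv a s') ∧
      (∀ (q : ℕ) (s s' : Fin chevE7.nroots), chiT chevE7 c s = chiT chevE7 c s' ^ q ↔ fv a s = (q : ZMod r) * fv a s') := by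
  obtain ⟨a, ha⟩ := exists_log hFX hζ hc
  refine ⟨a, ?_, ?_, ?_⟩
  · rintro rfl
    apply hne
    have h1 : ∀ s : Fin chevE7.nroots, chiT chevE7 c s = chiT chevE7 (1 : Fin chevE7.rank → Kˣ) s := by
      intro s
      rw [chiT_one'', chi_eq_Xc]
      have h2 := ((ha (rcV RootE7T.R chevE7 s) 0).1).2 (by simp)
      rw [h2, Xc_zero]
    rw [tor_eq_of_chi hFX h1]
    exact tor_one _ _
  · intro s s'
    rw [chi_eq_Xc, chi_eq_Xc]
    exact (ha _ _).1
  · intro q s s'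
    rw [chi_eq_Xc, chi_eq_Xc]
    exact (ha _ _).2 q

end Log

/-- **The Chevalley group of type E7 over the field with two elements has no element of order 65.** -/
theorem no_order_65 (x : ↥(chevE7.group (ZMod 2))) (hx : orderOf x = 65) : False := by
  classical
  let K := FiniteField.Extension (ZMod 2) 2 12
  letI : Fintype K := Fintype.ofFinite _
  have hKq : Fintype.card K = 4096 := by
    rw [← Nat.card_eq_fintype_card, FiniteField.natCard_extension, Nat.card_eq_fintype_card, ZMod.card]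
    norm_num
  let σ : K ≃+* K := RingEquiv.ofBijective (FiniteField.frobeniusAlgHom (ZMod 2) K : K →ₐ[ZMod 2] K).toRingHom
    (Finite.injective_iff_bijective.1 (RingHom.injective _))
  have hσ : ∀ y : K, σ y = y ^ 2 := by
    intro y
    show y ^ Fintype.card (ZMod 2) = y ^ 2
    rw [ZMod.card]
  let f : ZMod 2 →+* K := algebraMap (ZMod 2) K
  have hfσ : ∀ b, σ (f b) = f b := by
    intro b
    rw [hσ, ← map_pow]
    congr 1
    revert b
    decide
  have hK1 : 1 < Fintype.card K := Fintype.one_lt_card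
  have hle : chevE7.diagonalSubgroup K ≤ chevE7.group K :=
    fun x hx => hFX.c.monomial_le_group (hFX.c.diagonal_le_monomial hx)
  have hidx : ¬ 13 ∣ ((chevE7.diagonalSubgroup K).subgroupOf (chevE7.group K)).index := by
    have hL : Nat.gcd 2 (Fintype.card K - 1) * Nat.card ↥(chevE7.group K) =
        Fintype.card K ^ 63 * (([2, 6, 8, 10, 12, 14, 18] : List ℕ).map (fun e => Fintype.card K ^ e - 1)).prod := TE7.hGen (K := K)
    have hH : Nat.gcd 2 (Fintype.card K - 1) * Nat.card ↥(chevE7.diagonalSubgroup K) =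
        (Fintype.card K - 1) ^ ([2, 6, 8, 10, 12, 14, 18] : List ℕ).length := Full.torus_card_E7 (F := K) hFX
    have hrE : ¬ 13 ∣ ([2, 6, 8, 10, 12, 14, 18] : List ℕ).prod := by decide
    have hrK : 13 ∣ Fintype.card K - 1 := by
      rw [hKq]
      norm_num
    exact index_not_dvd (Q := Fintype.card K) (g := Nat.gcd 2 (Fintype.card K - 1)) (N := 63) (r := 13) (chevE7.diagonalSubgroup K) (chevE7.group K) hle
      [2, 6, 8, 10, 12, 14, 18] (by omega) hrK hK1 hrE (Nat.gcd_pos_of_pos_left _ (by norm_num)) hL hH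
  -- the two commuting pieces
  set ι := glM chevE7 f with hι
  have hιG : ∀ g ∈ chevE7.group (ZMod 2), ι g ∈ chevE7.group K := fun g hg => map_group_le chevE7 f ⟨g, hg, rfl⟩
  have hx65 : x.1 ^ 65 = 1 := by
    have h1 : x ^ orderOf x = 1 := pow_orderOf_eq_one x
    rw [hx] at h1
    have h2 := congrArg Subtype.val h1
    rwa [Subgroup.coe_pow, Subgroup.coe_one] at h2
  have hinj : Function.Injective ι := glM_injective chevE7 f
  have hne5 : ι (x.1 ^ 5) ≠ 1 := by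
    intro h0
    have h1 : x.1 ^ 5 = 1 := hinj (by rw [h0, map_one])
    have h2 : x ^ 5 = 1 := Subtype.ext h1
    have h3 := orderOf_dvd_of_pow_eq_one h2
    rw [hx] at h3
    exact absurd h3 (by norm_num)
  have hne13 : ι (x.1 ^ 13) ≠ 1 := by
    intro h0
    have h1 : x.1 ^ 13 = 1 := hinj (by rw [h0, map_one])
    have h2 : x ^ 13 = 1 := Subtype.ext h1
    have h3 := orderOf_dvd_of_pow_eq_one h2
    rw [hx] at h3
    exact absurd h3 (by norm_num)
  have hG5 : ι (x.1 ^ 5) ∈ chevE7.group K := hιG _ (pow_mem x.2 5)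
  have hG13 : ι (x.1 ^ 13) ∈ chevE7.group K := hιG _ (pow_mem x.2 13)
  have hp5 : (ι (x.1 ^ 5)) ^ 13 = 1 := by
    rw [← map_pow, ← pow_mul]
    show ι (x.1 ^ 65) = 1
    rw [hx65, map_one]
  have hp13 : (ι (x.1 ^ 13)) ^ 5 = 1 := by
    rw [← map_pow, ← pow_mul]
    show ι (x.1 ^ 65) = 1
    rw [hx65, map_one]
  have hcomm : ι (x.1 ^ 13) * ι (x.1 ^ 5) = ι (x.1 ^ 5) * ι (x.1 ^ 13) := by
    rw [← map_mul, ← map_mul, ← pow_add, ← pow_add, add_comm]
  -- roots of unity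
  have hc13 : 13 ∣ Nat.card Kˣ := by
    rw [Nat.card_eq_fintype_card, Fintype.card_units, hKq]
    norm_num
  have hc5 : 5 ∣ Nat.card Kˣ := by
    rw [Nat.card_eq_fintype_card, Fintype.card_units, hKq]
    norm_num
  obtain ⟨ζ13, hζ13⟩ := exists_prime_orderOf_dvd_card' 13 hc13
  obtain ⟨ζ5, hζ5⟩ := exists_prime_orderOf_dvd_card' 5 hc5
  -- first conjugation
  obtain ⟨Y, hY, hYt⟩ := exists_conj_torus hFX hidx hG5 hp5
  obtain ⟨c₀, hc₀⟩ := (hFX.mem_diagonal_iff).1 hYt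
  have htor13 : (tor RootE7T.R chevE7 c₀ : GL chevE7.Idx K) ^ 13 = 1 := by
    rw [← hc₀, conj_inv_pow_aux, hp5]
    group
  have htorne : (tor RootE7T.R chevE7 c₀ : GL chevE7.Idx K) ≠ 1 := by
    rw [← hc₀]
    intro h0
    apply hne5
    calc ι (x.1 ^ 5) = Y * (Y⁻¹ * ι (x.1 ^ 5) * Y) * Y⁻¹ := by group
      _ = 1 := by rw [h0]; group
  obtain ⟨a13, ha13, hl1, hl2⟩ := exists_fv hζ13 htor13 htorne
  obtain ⟨ρ₁, hρ₁, htw₁⟩ := twist_of_Y hFX f σ 2 hfσ hσ hY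
  have ht₁ : ∀ s, fv a13 (ρ₁ s) = ((2 : ℕ) : ZMod 13) * fv a13 s :=
    fun s => (hl2 2 _ _).1 (htw₁ (x.1 ^ 5) c₀ (pow_mem x.2 5) hc₀ s)
  have hstab : ∀ ρ ∈ hFX.Wk Set.univ, (∀ s : Fin chevE7.nroots, chiT chevE7 c₀ (ρ s) = chiT chevE7 c₀ s) → ρ ^ 5 = 1 → ρ = 1 := by
    intro ρ hρ hs h5
    exact stab_no5 ha13 hρ₁ (fun s => ht₁ s) hρ (fun s => (hl1 _ _).1 (hs s)) h5
  -- the element of order 5
  set z := Y⁻¹ * ι (x.1 ^ 13) * Y with hz
  have hzG : z ∈ chevE7.group K := mul_mem (mul_mem (inv_mem hY) hG13) hY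
  have hzt : z * tor RootE7T.R chevE7 c₀ = tor RootE7T.R chevE7 c₀ * z := by
    rw [← hc₀, hz]
    calc Y⁻¹ * ι (x.1 ^ 13) * Y * (Y⁻¹ * ι (x.1 ^ 5) * Y) = Y⁻¹ * (ι (x.1 ^ 13) * ι (x.1 ^ 5)) * Y := by group
      _ = Y⁻¹ * (ι (x.1 ^ 5) * ι (x.1 ^ 13)) * Y := by rw [hcomm]
      _ = _ := by group
  have hz5 : z ^ 5 = 1 := by
    rw [hz, conj_inv_pow_aux, hp13]
    group
  have hr1 : 5 ∣ Fintype.card K - 1 := by
    rw [hKq]
    norm_num
  have hr2 : ¬ 5 ^ 2 ∣ Fintype.card K - 1 := by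
    rw [hKq]
    norm_num
  obtain ⟨m, hm, hmt, hmz⟩ := exists_conj_torus_centralizer hFX hr1 hr2 hsep0 hsep c₀ hstab hzG hzt hz5
  obtain ⟨d, hd⟩ := (hFX.mem_diagonal_iff).1 hmz
  -- the second conjugation
  set Y₂ := Y * m with hY₂
  have hY₂G : Y₂ ∈ chevE7.group K := mul_mem hY hm
  have hc₂ : Y₂⁻¹ * ι (x.1 ^ 5) * Y₂ = tor RootE7T.R chevE7 c₀ := by
    calc Y₂⁻¹ * ι (x.1 ^ 5) * Y₂ = m⁻¹ * (Y⁻¹ * ι (x.1 ^ 5) * Y) * m := by rw [hY₂]; group
      _ = m⁻¹ * (tor RootE7T.R chevE7 c₀ * m) := by rw [hc₀]; group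
      _ = m⁻¹ * (m * tor RootE7T.R chevE7 c₀) := by rw [hmt]
      _ = _ := by group
  have hd₂ : Y₂⁻¹ * ι (x.1 ^ 13) * Y₂ = tor RootE7T.R chevE7 d := by
    rw [← hd, hz, hY₂]
    group
  have htord5 : (tor RootE7T.R chevE7 d : GL chevE7.Idx K) ^ 5 = 1 := by
    rw [← hd₂, conj_inv_pow_aux, hp13]
    group
  have htordne : (tor RootE7T.R chevE7 d : GL chevE7.Idx K) ≠ 1 := by
    rw [← hd₂]
    intro h0
    apply hne13
    calc ι (x.1 ^ 13) = Y₂ * (Y₂⁻¹ * ι (x.1 ^ 13) * Y₂) * Y₂⁻¹ := by group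
      _ = 1 := by rw [h0]; group
  obtain ⟨a5, ha5, -, hl5⟩ := exists_fv hζ5 htord5 htordne
  obtain ⟨ρ₂, hρ₂, htw₂⟩ := twist_of_Y hFX f σ 2 hfσ hσ hY₂G
  exact final_contra hρ₂ ha13 (fun s => (hl2 2 _ _).1 (htw₂ (x.1 ^ 5) c₀ (pow_mem x.2 5) hc₂ s)) ha5
    (fun s => (hl5 2 _ _).1 (htw₂ (x.1 ^ 13) d (pow_mem x.2 13) hd₂ s))

end Cfsg.Agent.Lib.N65
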