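import Cfsg.Agent.Lib.N65.Check
import Cfsg.Agent.Lib.S2378Alg91
import Cfsg.Agent.Lib.Syl54.Main

/-!
# The Chevalley group of type E7 over the field with two elements has no element of order 65
-/

set_option autoImplicit false
set_option linter.unusedSectionVars false
set_option linter.unusedVariables false
set_option linter.unusedSimpArgs false
set_option maxRecDepth 100000

namespace Cfsg.Agent.Lib.N65

open Cfsg Cfsg.Lie Cfsg.Agent.Lib.Chev Matrix Cfsg.Agent.Lib.ChevFix Cfsg.Agent.Lib.TwTor32 Cfsg.Agent.Lib.Syl54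
open Cfsg.Agent.Lib.Syl54.TE7 (hFX)
open Polynomial (cyclotomic)

instance instP5 : Fact (Nat.Prime 5) := ⟨by norm_num⟩
instance instP13 : Fact (Nat.Prime 13) := ⟨by norm_num⟩
instance instP2 : Fact (Nat.Prime 2) := ⟨by norm_num⟩

theorem mem_Eg_of_fv {r : ℕ} [Fact r.Prime] {ρ : Equiv.Perm (Fin chevE7.nroots)} {a : Fin chevE7.rank → ZMod r} {u : ZMod r}
    (h : ∀ s, fv a (ρ s) = u * fv a s) : a ∈ Eg r (mat hFX ρ) u := by
  rw [mem_Eg]
  funext j
  have h1 := h (hFX.pF j)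
  rw [fv_pF] at h1
  rw [Pi.smul_apply, smul_eq_mul, ← h1]
  unfold fv dotProduct
  simp only [Matrix.mulVec, dotProduct, redT]
  apply Finset.sum_congr rfl
  intro i _
  rw [mul_comm]
  rfl

theorem fv_pow {r : ℕ} {ρ : Equiv.Perm (Fin chevE7.nroots)} {a : Fin chevE7.rank → ZMod r} {u : ZMod r}
    (h : ∀ s, fv a (ρ s) = u * fv a s) (k : ℕ) (s : Fin chevE7.nroots) : fv a ((ρ ^ k) s) = u ^ k * fv a s := by
  induction k generalizing s with
  | zero => simp
  | succ k ih =>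
    rw [pow_succ, Equiv.Perm.mul_apply, ih, h, pow_succ]
    ring

theorem pow_eq_one_of_fv {r : ℕ} [Fact r.Prime] {ρ : Equiv.Perm (Fin chevE7.nroots)} {a : Fin chevE7.rank → ZMod r}
    (ha : a ≠ 0) {u : ZMod r} (h : ∀ s, fv a (ρ s) = u * fv a s) {k : ℕ} (hk : ρ ^ k = 1) : u ^ k = 1 := by
  obtain ⟨j, hj⟩ : ∃ j, a j ≠ 0 := by
    by_contra h0
    push_neg at h0
    exact ha (funext h0)
  have h1 := fv_pow h k (hFX.pF j)
  rw [hk, Equiv.Perm.one_apply, fv_pF] at h1
  have h2 : (u ^ k - 1) * a j = 0 := by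
    rw [sub_mul, ← h1]
    ring
  rcases mul_eq_zero.1 h2 with h3 | h3
  · exact sub_eq_zero.1 h3
  · exact absurd h3 hj

theorem ord_2_13 : orderOf ((2 : ℕ) : ZMod 13) = 12 := by
  rw [orderOf_eq_iff (by norm_num)]
  refine ⟨by decide, ?_⟩
  intro m h1 h2
  interval_cases m <;> decide

theorem ord_2_5 : orderOf ((2 : ℕ) : ZMod 5) = 4 := by
  rw [orderOf_eq_iff (by norm_num)]
  refine ⟨by decide, ?_⟩
  intro m h1 h2
  interval_cases m <;> decide

theorem ord_5_13 : orderOf (5 : ZMod 13) = 4 := by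
  rw [orderOf_eq_iff (by norm_num)]
  refine ⟨by decide, ?_⟩
  intro m h1 h2
  interval_cases m <;> decide

theorem ord_8_13 : orderOf (8 : ZMod 13) = 4 := by
  rw [orderOf_eq_iff (by norm_num)]
  refine ⟨by decide, ?_⟩
  intro m h1 h2
  interval_cases m <;> decide

theorem ord_7_13 : orderOf (7 : ZMod 13) = 12 := by
  rw [orderOf_eq_iff (by norm_num)]
  refine ⟨by decide, ?_⟩
  intro m h1 h2
  interval_cases m <;> decide

theorem ord_11_13 : orderOf (11 : ZMod 13) = 12 := by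
  rw [orderOf_eq_iff (by norm_num)]
  refine ⟨by decide, ?_⟩
  intro m h1 h2
  interval_cases m <;> decide

theorem cyclo_dvd {r : ℕ} [Fact r.Prime] {A : Matrix (Fin chevE7.rank) (Fin chevE7.rank) ℤ} {N : ℕ} (hN : 0 < N) (hA : A ^ N = 1)
    (hrN : ¬ r ∣ N) {q : ℕ} (hq : ¬ r ∣ q) {a : Fin chevE7.rank → ZMod r} (ha : a ≠ 0) (haE : a ∈ Eg r A (q : ZMod r)) :
    cyclotomic (orderOf (q : ZMod r)) ℤ ∣ A.charpoly := by
  classical
  have h1 := Cfsg.Agent.Lib.S2378Alg91.cyclotomic_pow_dvd A hN hA hrN q hq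
  have hS : ∀ f ∈ Eg r A (q : ZMod r), (A.map (Int.castRingHom (ZMod r)))ᵀ *ᵥ f = (q : ZMod r) • f := by
    intro f hf
    exact mem_Eg.1 hf
  have h2 := Cfsg.Agent.Lib.S2378Alg91.finrank_le_rootMultiplicity A (q : ZMod r) _ hS
  have h3 : 0 < Module.finrank (ZMod r) ↥(Eg r A (q : ZMod r)) := by
    rw [Module.finrank_pos_iff_exists_ne_zero]
    exact ⟨⟨a, haE⟩, fun h => ha (congrArg Subtype.val h)⟩
  have h4 : 1 ≤ (A.charpoly.map (Int.castRingHom (ZMod r))).rootMultiplicity (q : ZMod r) := by omega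
  exact (dvd_pow_self _ (by omega)).trans h1

theorem exists_eig {A : Matrix (Fin chevE7.rank) (Fin chevE7.rank) ℤ} {n : ℕ} (hn : 0 < n) {μ : ZMod 13}
    (hμ : IsPrimitiveRoot μ n) (h : cyclotomic n ℤ ∣ A.charpoly) : Eg 13 A μ ≠ ⊥ := by
  classical
  have h1 : (A.charpoly.map (Int.castRingHom (ZMod 13))).IsRoot μ := by
    obtain ⟨g, hg⟩ := h
    have h0 : (cyclotomic n (ZMod 13)).IsRoot μ := hμ.isRoot_cyclotomic hn
    rw [Polynomial.IsRoot.def] at h0
    rw [hg, Polynomial.map_mul, Polynomial.map_cyclotomic, Polynomial.IsRoot.def, Polynomial.eval_mul,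
      h0, zero_mul]
  have h2 : (fE 13 A).charpoly = A.charpoly.map (Int.castRingHom (ZMod 13)) := by
    have e : redT 13 A = (A.map (Int.castRingHom (ZMod 13)))ᵀ := rfl
    unfold fE
    rw [Matrix.charpoly_toLin', e, Matrix.charpoly_transpose, Matrix.charpoly_map]
  rw [← h2] at h1
  have h3 := (Module.End.hasEigenvalue_iff_isRoot_charpoly (fE 13 A) μ).2 h1
  exact h3

/-- The final contradiction: both eigenvalues of order `12` modulo `13` and of order `4` modulo `5`. -/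
theorem final_contra {ρ : Equiv.Perm (Fin chevE7.nroots)} (hρ : ρ ∈ hFX.Wk Set.univ)
    {a13 : Fin chevE7.rank → ZMod 13} (h13 : a13 ≠ 0) (ht13 : ∀ s, fv a13 (ρ s) = ((2 : ℕ) : ZMod 13) * fv a13 s)
    {a5 : Fin chevE7.rank → ZMod 5} (h5 : a5 ≠ 0) (ht5 : ∀ s, fv a5 (ρ s) = ((2 : ℕ) : ZMod 5) * fv a5 s) : False := by
  classical
  set A := mat hFX ρ with hAdef
  set N := orderOf ρ with hNdef
  have hN : 0 < N := orderOf_pos ρ
  have hρN : ρ ^ N = 1 := pow_orderOf_eq_one ρ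
  have hA : A ^ N = 1 := by
    rw [hAdef, ← mat_pow hFX hρ, hρN, mat_one]
  have hNW : N ∣ 2903040 := by
    have h1 : orderOf (⟨ρ, hρ⟩ : ↥(hFX.Wk Set.univ)) ∣ Nat.card ↥(hFX.Wk Set.univ) := orderOf_dvd_natCard _
    rw [Subgroup.orderOf_mk, TE7.card_Wk] at h1
    exact h1
  have h13N : ¬ 13 ∣ N := fun h => absurd (h.trans hNW) (by norm_num)
  have h12 : 12 ∣ N := by
    have h1 := pow_eq_one_of_fv h13 ht13 hρN
    have h2 := orderOf_dvd_of_pow_eq_one h1
    rwa [ord_2_13] at h2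
  have h5N : ¬ 5 ∣ N := by
    rintro ⟨M, hM⟩
    have hM0 : 0 < M := by
      rcases Nat.eq_zero_or_pos M with h | h
      · rw [h] at hM
        omega
      · exact h
    have h12M : 12 ∣ M := by
      have h1 : 12 ∣ 5 * M := hM ▸ h12
      exact (Nat.Coprime.dvd_mul_left (by norm_num)).1 h1
    have hy : ρ ^ M = 1 := by
      apply stab_no5 h13 hρ (ρ := ρ) (fun s => ht13 s) (pow_mem hρ M)
      · intro s
        rw [fv_pow ht13]
        obtain ⟨t, rfl⟩ := h12M
        have e : ((2 : ℕ) : ZMod 13) ^ 12 = 1 := by decide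
        rw [pow_mul, e, one_pow, one_mul]
      · rw [← pow_mul, mul_comm, ← hM, hρN]
    have h1 := orderOf_dvd_of_pow_eq_one hy
    rw [← hNdef, hM] at h1
    have h2 := Nat.le_of_dvd hM0 h1
    omega
  have hΦ12 : cyclotomic 12 ℤ ∣ A.charpoly := by
    have h1 := cyclo_dvd hN hA h13N (q := 2) (by norm_num) h13 (mem_Eg_of_fv ht13)
    rwa [ord_2_13] at h1
  have hΦ4 : cyclotomic 4 ℤ ∣ A.charpoly := by
    have h1 := cyclo_dvd hN hA h5N (q := 2) (by norm_num) h5 (mem_Eg_of_fv ht5)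
    rwa [ord_2_5] at h1
  have hP7 : IsPrimitiveRoot (7 : ZMod 13) 12 := by
    have := IsPrimitiveRoot.orderOf (7 : ZMod 13)
    rwa [ord_7_13] at this
  have hP11 : IsPrimitiveRoot (11 : ZMod 13) 12 := by
    have := IsPrimitiveRoot.orderOf (11 : ZMod 13)
    rwa [ord_11_13] at this
  have hP8 : IsPrimitiveRoot (8 : ZMod 13) 4 := by
    have := IsPrimitiveRoot.orderOf (8 : ZMod 13)
    rwa [ord_8_13] at this
  have e7 := exists_eig (by norm_num) hP7 hΦ12
  have e11 := exists_eig (by norm_num) hP11 hΦ12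
  have e8 := exists_eig (by norm_num) hP8 hΦ4
  -- the eigenspace of the cube
  set S : Finset (ZMod 13) := {7, 11, 8} with hS
  have hsum := sum_finrank_iSup (fun μ => Eg 13 A μ) (Module.End.eigenspaces_iSupIndep (fE 13 A)) S
  have hle : (⨆ μ ∈ S, Eg 13 A μ) ≤ Eg 13 (A ^ 3) 5 := by
    apply iSup₂_le
    intro μ hμ x hx
    have h1 := mem_Eg_pow A hx 3
    have h2 : μ ^ 3 = 5 := by
      rw [hS] at hμ
      simp only [Finset.mem_insert, Finset.mem_singleton] at hμ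
      rcases hμ with rfl | rfl | rfl <;> decide
    rw [h2, fE_pow] at h1
    exact Module.End.mem_eigenspace_iff.2 h1
  have hfr := Submodule.finrank_mono hle
  have hpos : ∀ μ : ZMod 13, Eg 13 A μ ≠ ⊥ → 1 ≤ Module.finrank (ZMod 13) ↥(Eg 13 A μ) := by
    intro μ h
    exact Nat.pos_of_ne_zero (fun h0 => h (Submodule.finrank_eq_zero.1 h0))
  have hthree : 3 ≤ ∑ μ ∈ S, Module.finrank (ZMod 13) ↥(Eg 13 A μ) := by
    rw [hS]
    rw [Finset.sum_insert (by decide), Finset.sum_insert (by decide), Finset.sum_singleton]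
    have := hpos _ e7
    have := hpos _ e11
    have := hpos _ e8
    omega
  have hbd := TE7.hbd 13 (by norm_num) (ρ ^ 3) (pow_mem hρ 3) 5 (by
    have e : (5 : ZMod 13) ^ 4 = 1 := by decide
    have e2 : ([2, 6, 8, 10, 12, 14, 18] : List ℕ).prod = 4 * 725760 := by norm_num
    rw [e2, pow_mul, e, one_pow]) (by
    rw [ord_5_13]
    decide)
  rw [mat_pow hFX hρ, ord_5_13] at hbd
  have hlen : (([2, 6, 8, 10, 12, 14, 18] : List ℕ).filter (fun e => 4 ∣ e)).length = 2 := by decide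
  rw [hlen] at hbd
  rw [← hAdef] at hbd
  omega

end Cfsg.Agent.Lib.N65
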